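import Cfsg.Agent.Lib.Involutions.BrauerSuzuki
import Cfsg.Agent.Lib.Cores.PCore
import Cfsg.Agent.Lib.Cores.Basic

/-!
A non-abelian `2`-group acting on a group so that some nontrivial `t ∈ Z(Q) ∩ Q'` has the same
centraliser as `Q`: then the commutator of the group with `Q` has odd order (statement S2962).
The proof uses Glauberman's Z*-theorem.
-/

set_option autoImplicit false
open Cfsg CfsgLib.Involutions CfsgLib.Cores
open scoped commutatorElement

namespace CfsgLib.Balance.TwoAction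

universe u

variable {G : Type u} [Group G]

/-- The largest normal subgroup of odd order of a subgroup, seen in the whole group. -/
def oddPart (S : Subgroup G) : Subgroup G := (oddCore ↥S).map S.subtype

theorem oddPart_le (S : Subgroup G) : oddPart S ≤ S := Subgroup.map_subtype_le _

theorem odd_card_oddPart [Finite G] (S : Subgroup G) : Odd (Nat.card (oddPart S)) := by
  rw [oddPart, Subgroup.card_map_of_injective S.subtype_injective]
  exact odd_card_oddCore

theorem le_oddPart {K S : Subgroup G} (hKS : K ≤ S) (hK : Odd (Nat.card K))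
    (hn : ∀ s ∈ S, ∀ k ∈ K, s * k * s⁻¹ ∈ K) : K ≤ oddPart S := by
  apply le_map_subtype_of_subgroupOf_le hKS
  haveI : (K.subgroupOf S).Normal := ⟨fun k hk s => hn s s.2 k hk⟩
  apply le_oddCore
  rwa [Nat.card_congr (Subgroup.subgroupOfEquivOfLe hKS).toEquiv]

theorem conj_mem_oddPart {S : Subgroup G} {g w : G} (hg : g ∈ Subgroup.normalizer (S : Set G))
    (hw : w ∈ oddPart S) : g * w * g⁻¹ ∈ oddPart S :=
  (Subgroup.mem_normalizer_iff.1 (normalizer_le_normalizer_map_subtype S (oddCore ↥S) hg) w).1 hw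

instance oddPart_normal (N : Subgroup G) [N.Normal] : (oddPart N).Normal :=
  normal_map_subtype N (oddCore ↥N)

theorem mk_eq_one_iff {S : Subgroup G} (x : ↥S) :
    QuotientGroup.mk' (oddCore ↥S) x = 1 ↔ (x : G) ∈ oddPart S := by
  rw [QuotientGroup.mk'_apply, QuotientGroup.eq_one_iff]
  exact ⟨fun h => ⟨x, h, rfl⟩, fun ⟨y, hy, hxy⟩ => Subtype.ext hxy ▸ hy⟩

theorem odd_orderOf_of_mem_oddPart [Finite G] {S : Subgroup G} {w : G} (hw : w ∈ oddPart S) :
    Odd (orderOf w) :=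
  (odd_card_oddPart S).of_dvd_nat (Subgroup.orderOf_dvd_natCard _ hw)

/-- An involution fixes a point of a coset of odd order that it stabilises. -/
theorem exists_mul_commute {u x : G} (hu : u * u = 1)
    (hodd : Odd (orderOf (u * x * u * x⁻¹))) :
    ∃ i : ℕ, Commute u ((u * x * u * x⁻¹) ^ i * x) := by
  obtain ⟨j, hj⟩ := hodd
  obtain ⟨c, hc⟩ : ∃ c, c = u * x * u * x⁻¹ := ⟨_, rfl⟩
  rw [← hc] at hj ⊢
  refine ⟨j + 1, ?_⟩
  have huinv : u⁻¹ = u := inv_eq_of_mul_eq_one_right hu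
  have h1 : u * c * u⁻¹ = c⁻¹ := by
    rw [hc, huinv]
    simp only [mul_inv_rev, inv_inv, huinv, ← mul_assoc, hu, one_mul]
  have h2 : u * c ^ (j + 1) * u⁻¹ = (c ^ (j + 1))⁻¹ := by
    rw [← conj_pow, h1, inv_pow]
  have h3 : c ^ (j + 1) * c ^ (j + 1) = c := by
    rw [← pow_add, show j + 1 + (j + 1) = 2 * j + 1 + 1 by ring, pow_succ, ← hj,
      pow_orderOf_eq_one, one_mul]
  have h4 : (c ^ (j + 1))⁻¹ * c = c ^ (j + 1) := by
    rw [inv_mul_eq_iff_eq_mul, h3]
  have h5 : u * x = c * (x * u) := by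
    rw [hc]
    simp [mul_assoc, hu]
  calc u * (c ^ (j + 1) * x) = u * c ^ (j + 1) * u⁻¹ * (u * x) := by group
    _ = (c ^ (j + 1))⁻¹ * c * (x * u) := by rw [h2, h5, mul_assoc]
    _ = c ^ (j + 1) * x * u := by rw [h4, mul_assoc]

/-- An involution with no distinct commuting conjugate has only odd-order commutators. -/
theorem oddComm_of_no_commuting_conj [Finite G] {u : G} (hu : orderOf u = 2)
    (h : ∀ g : G, Commute (g * u * g⁻¹) u → g * u * g⁻¹ = u) : OddComm u := by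
  intro g
  rw [show u * g * u⁻¹ * g⁻¹ = u * (g * u * g⁻¹) by rw [inv_eq_self hu]; group]
  set v := g * u * g⁻¹ with hv
  have hv2 : orderOf v = 2 := (orderOf_conj g u).trans hu
  by_contra hne
  have heven : Even (orderOf (u * v)) := Nat.not_odd_iff_even.1 hne
  set k := orderOf (u * v) / 2 with hk
  have hz : orderOf ((u * v) ^ k) = 2 := orderOf_half heven (orderOf_pos _).ne'
  have hzu : Commute ((u * v) ^ k) u := commute_half_left hu hv2 heven
  have hcomm : Commute ((u * v) ^ k * u) u := hzu.mul_left (Commute.refl u)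
  have hconj : ∃ a : G, a * u * a⁻¹ = (u * v) ^ k * u := by
    rcases Nat.even_or_odd k with ⟨i, hi⟩ | ⟨i, hi⟩
    · refine ⟨(u * v) ^ (i : ℤ), ?_⟩
      rw [conj_left_by_zpow hu hv2, hi, ← zpow_natCast, Nat.cast_add, two_mul]
    · refine ⟨(u * v) ^ ((i + 1 : ℕ) : ℤ) * g, ?_⟩
      have hva : (u * v) ^ ((i + 1 : ℕ) : ℤ) * g * u * ((u * v) ^ ((i + 1 : ℕ) : ℤ) * g)⁻¹ =
          (u * v) ^ ((i + 1 : ℕ) : ℤ) * v * ((u * v) ^ ((i + 1 : ℕ) : ℤ))⁻¹ := by
        rw [hv]; group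
      rw [hva]
      generalize hc : u * v = c
      have hvc : v = c ^ (-1 : ℤ) * u := hc ▸ right_eq_zpow_mul hu hv2
      have hcl := conj_left_by_zpow hu hv2 ((i + 1 : ℕ) : ℤ)
      rw [hc] at hcl
      calc c ^ ((i + 1 : ℕ) : ℤ) * v * (c ^ ((i + 1 : ℕ) : ℤ))⁻¹
          = c ^ (-1 : ℤ) * (c ^ ((i + 1 : ℕ) : ℤ) * u * (c ^ ((i + 1 : ℕ) : ℤ))⁻¹) := by
            rw [hvc]; group
        _ = c ^ k * u := by
            rw [hcl, ← mul_assoc, ← zpow_add, ← zpow_natCast, hi]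
            congr 2
            push_cast; ring
  obtain ⟨a, ha⟩ := hconj
  have hfix := h a (ha ▸ hcomm)
  rw [ha] at hfix
  exact CfsgLib.Involutions.ne_one hz (mul_eq_right.1 hfix)

/-- A commuting conjugate of `u` distinct from `u` can be taken of the form `u * r` with `r`
centralised by `Q`. -/
theorem exists_conj_of_commuting [Finite G] {N Q : Subgroup G} [N.Normal] (hG : Q ⊔ N = ⊤)
    {u : G} (hu : orderOf u = 2) (hcQ : ∀ q ∈ Q, Commute q u)
    (hdec : ∀ x ∈ N, Commute x u → ∃ m ∈ N, (∀ q ∈ Q, Commute m q) ∧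
      x * m⁻¹ ∈ oddPart (N ⊓ Subgroup.centralizer ({u} : Set G)))
    (hQu : u ∈ Q) {g : G} (hg : Commute (g * u * g⁻¹) u) (hne : g * u * g⁻¹ ≠ u) :
    ∃ n ∈ N, ∃ r ∈ N, orderOf r = 2 ∧ (∀ q ∈ Q, Commute r q) ∧ n * u * n⁻¹ = u * r := by
  obtain ⟨n, hn, q, hq, rfl⟩ := Subgroup.mem_sup_of_normal_left.1
    (show g ∈ N ⊔ Q by rw [sup_comm, hG]; exact Subgroup.mem_top g)
  have e : n * q * u * (n * q)⁻¹ = n * u * n⁻¹ := by
    rw [mul_assoc n q u, (hcQ q hq).eq]; group
  rw [e] at hg hne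
  obtain ⟨x, hx⟩ : ∃ x, x = n * u * n⁻¹ := ⟨_, rfl⟩
  rw [← hx] at hg hne
  have hx2 : orderOf x = 2 := hx ▸ (orderOf_conj n u).trans hu
  set r := u * x with hr
  have hrN : r ∈ N := by
    have h1 : r = u * n * u⁻¹ * n⁻¹ := by rw [hr, hx, inv_eq_self hu]; group
    rw [h1]
    exact mul_mem (Subgroup.Normal.conj_mem ‹_› n hn u) (inv_mem hn)
  have hru : Commute r u := (Commute.refl u).mul_left hg
  have hr2 : orderOf r = 2 := orderOf_mul_eq_two hu hx2 hg.symm (Ne.symm hne)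
  obtain ⟨m, hm, hmQ, hw⟩ := hdec r hrN hru
  set W := oddPart (N ⊓ Subgroup.centralizer ({u} : Set G))
  have hmu : Commute m u := hmQ u hQu
  have hnorm : ∀ y ∈ N, Commute y u → ∀ w ∈ W, y * w * y⁻¹ ∈ W := fun y hy hyu w hw' =>
    conj_mem_oddPart (Subgroup.le_normalizer
      (Subgroup.mem_inf.2 ⟨hy, mem_centralizer_singleton.2 hyu.eq⟩)) hw'
  set w := r * m⁻¹ with hwdef
  have hrm : r = w * m := by rw [hwdef, inv_mul_cancel_right]
  have hm2 : m * m ∈ W := by
    have h1 : w * (m * w * m⁻¹) * (m * m) = 1 := by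
      calc w * (m * w * m⁻¹) * (m * m) = (w * m) * (w * m) := by group
        _ = 1 := by rw [← hrm, mul_self_eq_one hr2]
    rw [eq_inv_of_mul_eq_one_right h1]
    exact inv_mem (mul_mem hw (hnorm m hm hmu w hw))
  obtain ⟨j, hj⟩ := odd_orderOf_of_mem_oddPart hm2
  set m' := m ^ (2 * j + 1) with hm'
  have hm'sq : m' * m' = 1 := by
    rw [hm', ← (Commute.refl m).mul_pow, ← hj, pow_orderOf_eq_one]
  have hm'inv : m'⁻¹ = m' := inv_eq_of_mul_eq_one_right hm'sq
  have hrm' : r * m' ∈ W := by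
    have h1 : r * m' = (r * m⁻¹) * ((m * m) ^ j)⁻¹ := by
      have h2 : m'⁻¹ = m⁻¹ * ((m * m) ^ j)⁻¹ := by
        rw [← mul_inv_rev, hm', pow_succ, ← pow_two m, pow_mul]
      rw [← hm'inv, h2]
      exact (mul_assoc _ _ _).symm
    rw [h1]
    exact mul_mem hw (inv_mem (pow_mem hm2 j))
  have hm'1 : m' ≠ 1 := by
    intro h
    rw [h, mul_one] at hrm'
    have := odd_orderOf_of_mem_oddPart hrm'
    rw [hr2] at this
    exact Nat.not_odd_iff_even.2 even_two this
  have hm'2 : orderOf m' = 2 := orderOf_eq_two_iff.2 ⟨hm'sq, hm'1⟩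
  obtain ⟨d, hd, hdr⟩ := exists_conj_eq_of_odd hr2 hm'2 (odd_orderOf_of_mem_oddPart hrm')
  have hm'N : m' ∈ N := pow_mem hm _
  have hdle : Subgroup.closure ({r, m'} : Set G) ≤ N ⊓ Subgroup.centralizer ({u} : Set G) := by
    rw [Subgroup.closure_le]
    rintro y (rfl | rfl)
    · exact ⟨hrN, mem_centralizer_singleton.2 hru.eq⟩
    · exact ⟨hm'N, mem_centralizer_singleton.2 (hmu.pow_left _).eq⟩
  have hdu : Commute d u := mem_centralizer_singleton.1 (hdle hd).2
  refine ⟨d * n, mul_mem (hdle hd).1 hn, m', hm'N, hm'2,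
    fun q hq => (hmQ q hq).pow_left _, ?_⟩
  have hxr : x = u * r := by rw [hr, ← mul_assoc, mul_self_eq_one hu, one_mul]
  calc d * n * u * (d * n)⁻¹ = d * x * d⁻¹ := by rw [hx]; group
    _ = d * u * d⁻¹ * (d * r * d⁻¹) := by rw [hxr]; group
    _ = u * m' := by rw [hdr, hdu.eq, mul_inv_cancel_right]

/-- The element `u` of `Q'` cannot have a conjugate `u * r` with `r` centralised by `Q`. -/
theorem false_of_conj [Finite G] {N Q : Subgroup G} [N.Normal] (hQ : IsPGroup 2 Q)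
    {u : G} (hQu : u ∈ Q) (hcQ : ∀ q ∈ Q, Commute q u) (huQ : u ∈ ⁅Q, Q⁆)
    (hdec : ∀ x ∈ N, Commute x u → ∃ m ∈ N, (∀ q ∈ Q, Commute m q) ∧
      x * m⁻¹ ∈ oddPart (N ⊓ Subgroup.centralizer ({u} : Set G)))
    {n r : G} (hn : n ∈ N) (hr : r ∈ N) (hr2 : orderOf r = 2) (hrQ : ∀ q ∈ Q, Commute r q)
    (hnr : n * u * n⁻¹ = u * r) : False := by
  set S := N ⊓ Subgroup.centralizer ({u} : Set G) with hSdef
  set h := n⁻¹ with hh
  have hhN : h ∈ N := inv_mem hn
  have hur : h * (u * r) * h⁻¹ = u := by rw [← hnr, hh]; group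
  set s := h * r * h⁻¹ with hs
  have hS : ∀ x : G, x ∈ S ↔ x ∈ N ∧ Commute x u := fun x => by
    rw [hSdef, Subgroup.mem_inf, mem_centralizer_singleton]; rfl
  have hs2 : orderOf s = 2 := (orderOf_conj h r).trans hr2
  have hru : Commute r u := hrQ u hQu
  have hsu : Commute s u := by
    have h1 : Commute r (u * r) := hru.mul_right (Commute.refl r)
    have h2 := h1.map (MulAut.conj h).toMonoidHom
    simpa [MulAut.conj_apply, hur, ← hs] using h2
  have hhu : h * u * h⁻¹ = u * s := by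
    calc h * u * h⁻¹ = h * (u * r) * h⁻¹ * (h * r * h⁻¹)⁻¹ := by group
      _ = u * s := by rw [hur, ← hs, inv_eq_self hs2]
  have hsS : s ∈ S := (hS s).2 ⟨Subgroup.Normal.conj_mem ‹_› r hr h, hsu⟩
  -- the twisted action
  have hφ : ∀ q ∈ Q, Commute (h * q * h⁻¹) u := fun q hq => by
    have h1 : Commute q (u * r) := (hcQ q hq).mul_right (hrQ q hq).symm
    have h2 := h1.map (MulAut.conj h).toMonoidHom
    simpa [MulAut.conj_apply, hur] using h2
  have hkS : ∀ q : ↥Q, h * q * h⁻¹ * (q : G)⁻¹ ∈ S := fun q => (hS _).2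
    ⟨by rw [mul_assoc, mul_assoc, ← mul_assoc (q : G) h⁻¹]
        exact mul_mem hhN (Subgroup.Normal.conj_mem ‹_› _ (inv_mem hhN) q),
      (hφ q q.2).mul_left (hcQ q q.2).inv_left⟩
  have hnormQ : ∀ q ∈ Q, ∀ x ∈ S, q * x * q⁻¹ ∈ S := fun q hq x hx => by
    obtain ⟨hx1, hx2⟩ := (hS x).1 hx
    exact (hS _).2 ⟨Subgroup.Normal.conj_mem ‹_› x hx1 q,
      ((hcQ q hq).mul_left hx2).mul_left (hcQ q hq).inv_left⟩
  have htriv : ∀ q ∈ Q, ∀ x ∈ S, q * x * q⁻¹ * x⁻¹ ∈ oddPart S := by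
    intro q hq x hx
    obtain ⟨m, hm, hmQ, hw⟩ := hdec x ((hS x).1 hx).1 ((hS x).1 hx).2
    have hqn : q ∈ Subgroup.normalizer (S : Set G) := by
      rw [Subgroup.mem_normalizer_iff]
      refine fun y => ⟨hnormQ q hq y, fun hy => ?_⟩
      have := hnormQ q⁻¹ (inv_mem hq) _ hy
      simpa [mul_assoc] using this
    have h1 : q * x * q⁻¹ * x⁻¹ = q * (x * m⁻¹) * q⁻¹ * (x * m⁻¹)⁻¹ := by
      calc q * x * q⁻¹ * x⁻¹ = q * (x * m⁻¹) * (m * q⁻¹) * x⁻¹ := by group
        _ = q * (x * m⁻¹) * (q⁻¹ * m) * x⁻¹ := by rw [((hmQ q hq).inv_right).eq]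
        _ = _ := by group
    rw [h1]
    exact mul_mem (conj_mem_oddPart hqn hw) (inv_mem hw)
  let π := QuotientGroup.mk' (oddCore ↥S)
  have hπ : ∀ (x y : ↥S), (x : G) * (y : G)⁻¹ ∈ oddPart S → π x = π y := fun x y hxy => by
    rw [← mul_inv_eq_one, ← map_inv, ← map_mul]
    exact (mk_eq_one_iff _).2 hxy
  let κ : ↥Q →* ↥S ⧸ oddCore ↥S := MonoidHom.mk' (fun q => π ⟨_, hkS q⟩) fun a b => by
    show π _ = π _ * π _
    have hmem := hnormQ a a.2 _ (hkS b)
    have h1 : (⟨_, hkS (a * b)⟩ : ↥S) = ⟨_, hkS a⟩ * ⟨_, hmem⟩ := Subtype.ext (by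
      simp only [Subgroup.coe_mul]; group)
    rw [h1, map_mul]
    exact congrArg _ (hπ ⟨_, hmem⟩ ⟨_, hkS b⟩ (htriv a a.2 _ (hkS b)))
  have hκu : κ ⟨u, hQu⟩ = π ⟨s, hsS⟩ := by
    show π _ = π _
    congr 1
    refine Subtype.ext ?_
    show h * u * h⁻¹ * u⁻¹ = s
    rw [hhu, hsu.symm.eq, mul_inv_cancel_right]
  have hcomm : ∀ a b : ↥Q, κ (a * b * a⁻¹ * b⁻¹) = 1 := by
    intro a b
    set x := h * b * h⁻¹ * (b : G)⁻¹ with hx
    have hxS : x ∈ S := hkS b
    have hc : s * x * s * x⁻¹ ∈ oddPart S := by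
      have hub : (⟨u, hQu⟩ : ↥Q) * b = b * ⟨u, hQu⟩ := Subtype.ext (hcQ b b.2).eq.symm
      have h1 := congrArg κ hub
      rw [map_mul, map_mul, hκu] at h1
      have h2 : π (⟨s, hsS⟩ * ⟨x, hxS⟩ * ⟨s, hsS⟩⁻¹ * ⟨x, hxS⟩⁻¹) = 1 := by
        rw [map_mul, map_mul, map_mul, map_inv, map_inv, show π ⟨x, hxS⟩ = κ b from rfl, h1,
          mul_inv_cancel_right, mul_inv_cancel]
      have := (mk_eq_one_iff _).1 h2
      simpa [inv_eq_self hs2] using this
    obtain ⟨i, hi⟩ := exists_mul_commute (mul_self_eq_one hs2) (odd_orderOf_of_mem_oddPart hc)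
    set e := (s * x * s * x⁻¹) ^ i * x with he
    have heS : e ∈ S := mul_mem (pow_mem (oddPart_le S hc) i) hxS
    obtain ⟨heN, heu⟩ := (hS e).1 heS
    set d := h⁻¹ * e * h with hd
    have hdr : Commute d r := by
      have := hi.symm.map (MulAut.conj h⁻¹).toMonoidHom
      simpa [MulAut.conj_apply, hs, hd, mul_assoc] using this
    have hdu : Commute d u := by
      have h1 := heu.map (MulAut.conj h⁻¹).toMonoidHom
      have h2 : h⁻¹ * u * h = u * r := by rw [← hnr, hh]; group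
      have h3 : Commute d (u * r) := by
        simpa [MulAut.conj_apply, hd, h2] using h1
      have h4 := h3.mul_right hdr
      rwa [mul_assoc, mul_self_eq_one hr2, mul_one] at h4
    have hdS : d ∈ S := (hS d).2 ⟨by
      simpa [hd] using Subgroup.Normal.conj_mem ‹_› e heN h⁻¹, hdu⟩
    set o := (h * a * h⁻¹) * e * (h * a * h⁻¹)⁻¹ * e⁻¹ with ho
    have hoeq : o = h * ((a : G) * d * (a : G)⁻¹ * d⁻¹) * h⁻¹ := by rw [ho, hd]; group
    have hoodd : Odd (orderOf o) := by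
      rw [hoeq, orderOf_conj]
      exact odd_orderOf_of_mem_oddPart (htriv a a.2 d hdS)
    have hka := hkS a
    have hae := hnormQ a a.2 e heS
    have hoS : o ∈ S := by
      have h1 : o = (h * a * h⁻¹ * (a : G)⁻¹) * ((a : G) * e * (a : G)⁻¹) *
          (h * a * h⁻¹ * (a : G)⁻¹)⁻¹ * e⁻¹ := by rw [ho]; group
      rw [h1]
      exact mul_mem (mul_mem (mul_mem hka hae) (inv_mem hka)) (inv_mem heS)
    have hκe : π ⟨e, heS⟩ = κ b := hπ ⟨e, heS⟩ ⟨x, hxS⟩ (by
      show e * x⁻¹ ∈ oddPart S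
      rw [he, mul_inv_cancel_right]
      exact pow_mem hc i)
    have hπo : π ⟨o, hoS⟩ = κ (a * b * a⁻¹ * b⁻¹) := by
      have h1 : (⟨o, hoS⟩ : ↥S) = ⟨_, hka⟩ * ⟨_, hae⟩ * ⟨_, hka⟩⁻¹ * ⟨e, heS⟩⁻¹ :=
        Subtype.ext (by simp only [ho, Subgroup.coe_mul, Subgroup.coe_inv]; group)
      rw [h1, map_mul, map_mul, map_mul, map_inv, map_inv,
        hπ ⟨_, hae⟩ ⟨e, heS⟩ (htriv a a.2 e heS), hκe, map_mul, map_mul, map_mul, map_inv, map_inv]
      rfl
    have hodd : Odd (orderOf (κ (a * b * a⁻¹ * b⁻¹))) := by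
      rw [← hπo]
      refine hoodd.of_dvd_nat ?_
      rw [← Subgroup.orderOf_mk o hoS]
      exact orderOf_map_dvd π _
    obtain ⟨k, hk⟩ := hQ (a * b * a⁻¹ * b⁻¹)
    refine orderOf_eq_one_iff.1 (Nat.eq_one_of_dvd_coprimes
      ((Nat.coprime_two_left.2 hodd).pow_left k) ?_ dvd_rfl)
    exact orderOf_dvd_of_pow_eq_one (by rw [← map_pow, hk, map_one])
  have hle : ⁅Q, Q⁆ ≤ κ.ker.map Q.subtype := Subgroup.commutator_le.2 fun a ha b hb =>
    ⟨⁅(⟨a, ha⟩ : ↥Q), ⟨b, hb⟩⁆, by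
      rw [SetLike.mem_coe, MonoidHom.mem_ker, commutatorElement_def]
      exact hcomm _ _, rfl⟩
  obtain ⟨v, hv, hvu⟩ := hle huQ
  have hvu' : v = (⟨u, hQu⟩ : ↥Q) := Subtype.ext hvu
  have : (s : G) ∈ oddPart S := by
    have h1 : κ v = 1 := hv
    rw [hvu', hκu] at h1
    exact (mk_eq_one_iff _).1 h1
  have := odd_orderOf_of_mem_oddPart this
  rw [hs2] at this
  exact Nat.not_odd_iff_even.2 even_two this

/-- The step in which `u` does not centralise `N`. -/
theorem step_centralizer [Finite G] {N Q : Subgroup G} [N.Normal] (hG : Q ⊔ N = ⊤)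
    (hQ : IsPGroup 2 Q)
    {u : G} (hQu : u ∈ Q) (hu : orderOf u = 2) (hcQ : ∀ q ∈ Q, Commute q u) (huQ : u ∈ ⁅Q, Q⁆)
    (hdec : ∀ x ∈ N, Commute x u → ∃ m ∈ N, (∀ q ∈ Q, Commute m q) ∧
      x * m⁻¹ ∈ oddPart (N ⊓ Subgroup.centralizer ({u} : Set G))) :
    ∀ x ∈ N, ∃ m ∈ N, (∀ q ∈ Q, Commute m q) ∧ x * m⁻¹ ∈ oddPart N := by
  have hno : ∀ g : G, Commute (g * u * g⁻¹) u → g * u * g⁻¹ = u := by
    intro g hg
    by_contra hne
    obtain ⟨n, hn, r, hr, hr2, hrQ, hnr⟩ := exists_conj_of_commuting hG hu hcQ hdec hQu hg hne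
    exact false_of_conj hQ hQu hcQ huQ hdec hn hr hr2 hrQ hnr
  have hz := zstar_theorem hu (oddComm_of_no_commuting_conj hu hno)
  have hW0 : oddCore G ⊓ N ≤ oddPart N := by
    refine le_oddPart inf_le_right
      (odd_card_oddCore.of_dvd_nat (Subgroup.card_dvd_of_le inf_le_left)) fun s hs k hk => ?_
    exact ⟨Subgroup.Normal.conj_mem inferInstance k hk.1 s,
      Subgroup.Normal.conj_mem ‹_› k hk.2 s⟩
  -- every element of `N` is congruent to one commuting with `u`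
  have hcov : ∀ x ∈ N, ∃ w ∈ oddPart N, Commute (w * x) u ∧ w * x ∈ N := by
    intro x hx
    have hc : u * x * u * x⁻¹ ∈ oddCore G ⊓ N := by
      have h1 := hz x
      rw [inv_eq_self hu] at h1
      refine Subgroup.mem_inf.2 ⟨h1, ?_⟩
      have h2 := Subgroup.Normal.conj_mem ‹N.Normal› x hx u
      rw [inv_eq_self hu] at h2
      exact mul_mem h2 (inv_mem hx)
    obtain ⟨i, hi⟩ := exists_mul_commute (mul_self_eq_one hu)
      (odd_card_oddCore.of_dvd_nat (Subgroup.orderOf_dvd_natCard _ hc.1))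
    exact ⟨_, pow_mem (hW0 hc) i, hi.symm, mul_mem (pow_mem hc.2 i) hx⟩
  have hW : oddPart (N ⊓ Subgroup.centralizer ({u} : Set G)) ≤ oddPart N := by
    set W := oddPart (N ⊓ Subgroup.centralizer ({u} : Set G))
    refine le_trans le_sup_left (le_oddPart (K := W ⊔ oddPart N) ?_ ?_ ?_)
    · exact sup_le ((oddPart_le _).trans inf_le_left) (oddPart_le N)
    · exact ((odd_card_oddPart _).mul (odd_card_oddPart N)).of_dvd_nat
        (card_sup_dvd W (oddPart N))
    · intro x hx k hk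
      obtain ⟨w, hw, hwu, hwN⟩ := hcov x hx
      obtain ⟨a, ha, b, hb, rfl⟩ := Subgroup.mem_sup_of_normal_right.1 hk
      have ha' : (w * x) * a * (w * x)⁻¹ ∈ W := conj_mem_oddPart
        (Subgroup.le_normalizer ⟨hwN, mem_centralizer_singleton.2 hwu.eq⟩) ha
      have h1 : x * (a * b) * x⁻¹ =
          w⁻¹ * ((w * x) * a * (w * x)⁻¹) * w * (x * b * x⁻¹) := by group
      rw [h1]
      have hw' : w ∈ W ⊔ oddPart N := Subgroup.mem_sup_right hw
      exact mul_mem (mul_mem (mul_mem (inv_mem hw') (Subgroup.mem_sup_left ha')) hw')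
        (Subgroup.mem_sup_right (Subgroup.Normal.conj_mem inferInstance b hb x))
  intro x hx
  obtain ⟨w, hw, hwu, hwN⟩ := hcov x hx
  obtain ⟨m, hm, hmQ, hwm⟩ := hdec _ hwN hwu
  refine ⟨m, hm, hmQ, ?_⟩
  have h1 : x * m⁻¹ = w⁻¹ * (w * x * m⁻¹) := by group
  rw [h1]
  exact mul_mem (inv_mem hw) (hW hwm)

/-- Main induction. -/
theorem dec_aux (c : ℕ) : ∀ (G : Type u) [Group G] [Finite G], Nat.card G ≤ c →
    ∀ (N Q : Subgroup G) [N.Normal], IsPGroup 2 Q → Q ⊓ N = ⊥ → Q ⊔ N = ⊤ →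
    ∀ t ∈ Q, (∀ q ∈ Q, Commute q t) → t ∈ ⁅Q, Q⁆ → t ≠ 1 →
    (∀ n ∈ N, Commute n t → ∀ q ∈ Q, Commute n q) →
    ∀ x ∈ N, ∃ m ∈ N, (∀ q ∈ Q, Commute m q) ∧ x * m⁻¹ ∈ oddPart N := by
  induction c with
  | zero => intro G _ _ hc; exact absurd hc (Nat.not_le.2 Nat.card_pos)
  | succ c ih =>
    intro G _ _ hcard N Q _ hQ hdisj hG t htQ htc htQ' ht1 hC
    have hteven : Even (orderOf t) := by
      obtain ⟨k, hk⟩ := hQ ⟨t, htQ⟩
      obtain ⟨j, -, hj⟩ := (Nat.dvd_prime_pow Nat.prime_two).1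
        (orderOf_dvd_of_pow_eq_one (congrArg Subtype.val hk : t ^ 2 ^ k = 1))
      cases j with
      | zero => exact absurd (orderOf_eq_one_iff.1 (by rw [hj, pow_zero])) ht1
      | succ j => exact hj ▸ Nat.even_pow.2 ⟨even_two, Nat.succ_ne_zero j⟩
    set u := t ^ (orderOf t / 2) with hudef
    have hu : orderOf u = 2 := orderOf_half hteven (orderOf_pos t).ne'
    have hQu : u ∈ Q := pow_mem htQ _
    have hcQ : ∀ q ∈ Q, Commute q u := fun q hq => (htc q hq).pow_right _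
    have huQ : u ∈ ⁅Q, Q⁆ := pow_mem htQ' _
    by_cases hcent : ∀ x ∈ N, Commute x u
    · by_cases htu : t = u
      · intro x hx
        exact ⟨x, hx, hC x hx (htu ▸ hcent x hx), by rw [mul_inv_cancel]; exact one_mem _⟩
      -- pass to the quotient by the central involution `u`
      have hZ : ∀ g : G, g * u = u * g := by
        intro g
        obtain ⟨n, hn, q, hq, rfl⟩ := Subgroup.mem_sup_of_normal_left.1
          (show g ∈ N ⊔ Q by rw [sup_comm, hG]; exact Subgroup.mem_top g)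
        exact ((hcent n hn).mul_left (hcQ q hq)).eq
      set U := Subgroup.zpowers u with hU
      haveI : U.Normal := ⟨fun y hy g => by
        obtain ⟨k, rfl⟩ := Subgroup.mem_zpowers_iff.1 hy
        rw [((show Commute g u from hZ g).zpow_right k).eq, mul_inv_cancel_right]
        exact hy⟩
      have hUQ : U ≤ Q := Subgroup.zpowers_le.2 hQu
      have hUN : ∀ y ∈ U, y ∈ N → y = 1 := fun y hy hyN => by
        have : y ∈ Q ⊓ N := ⟨hUQ hy, hyN⟩
        rwa [hdisj, Subgroup.mem_bot] at this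
      set π := QuotientGroup.mk' U with hπ
      have hker : ∀ y, π y = 1 ↔ y ∈ U := fun y => QuotientGroup.eq_one_iff y
      have hsurj : Function.Surjective π := QuotientGroup.mk'_surjective U
      haveI : (N.map π).Normal := Subgroup.Normal.map ‹_› π hsurj
      have hlt : Nat.card (G ⧸ U) ≤ c := by
        have h1 : Nat.card G = Nat.card (G ⧸ U) * Nat.card U :=
          Subgroup.card_eq_card_quotient_mul_card_subgroup U
        rw [hU, Nat.card_zpowers, hu] at h1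
        have : 0 < Nat.card (G ⧸ U) := Nat.card_pos
        rw [hU] at this ⊢
        omega
      have hcommlift : ∀ x ∈ N, ∀ q : G, Commute (π x) (π q) → Commute x q := by
        intro x hx q hq
        have h1 : x * q * x⁻¹ * q⁻¹ ∈ U := by
          rw [← hker, map_mul, map_mul, map_mul, map_inv, map_inv, hq.eq, mul_inv_cancel_right,
            mul_inv_cancel]
        have h2 : x * q * x⁻¹ * q⁻¹ ∈ N := by
          rw [mul_assoc, mul_assoc, ← mul_assoc q]
          exact mul_mem hx (Subgroup.Normal.conj_mem ‹_› _ (inv_mem hx) q)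
        have h3 := hUN _ h1 h2
        show x * q = q * x
        exact mul_inv_eq_iff_eq_mul.1 (mul_inv_eq_one.1 h3)
      have hih := ih (G ⧸ U) hlt (N.map π) (Q.map π) (hQ.map π) ?_ ?_ (π t)
        (Subgroup.mem_map_of_mem π htQ) ?_ ?_ ?_ ?_
      · intro x hx
        obtain ⟨_, ⟨m, hm, rfl⟩, hmQ, hxm⟩ := hih (π x) (Subgroup.mem_map_of_mem π hx)
        refine ⟨m, hm, fun q hq => hcommlift m hm q (hmQ _ (Subgroup.mem_map_of_mem π hq)), ?_⟩
        rw [← map_inv, ← map_mul] at hxm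
        set K := (oddPart (N.map π)).comap π ⊓ N
        have hKle : K ≤ oddPart N := by
          refine le_oddPart inf_le_right ?_ fun s hs k hk => ⟨?_,
            Subgroup.Normal.conj_mem ‹_› k hk.2 s⟩
          · have hinj : Function.Injective (π.comp K.subtype) := by
              rw [injective_iff_map_eq_one]
              intro k hk
              exact Subtype.ext (hUN _ ((hker _).1 hk) k.2.2)
            have h1 : (π.comp K.subtype).range ≤ oddPart (N.map π) := by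
              rintro _ ⟨k, rfl⟩
              exact k.2.1
            have h2 := Subgroup.card_dvd_of_le h1
            rw [← Nat.card_congr (MonoidHom.ofInjective hinj).toEquiv] at h2
            exact (odd_card_oddPart _).of_dvd_nat h2
          · show π (s * k * s⁻¹) ∈ oddPart (N.map π)
            rw [map_mul, map_mul, map_inv]
            exact Subgroup.Normal.conj_mem inferInstance _ hk.1 _
        exact hKle (Subgroup.mem_inf.2 ⟨hxm, mul_mem hx (inv_mem hm)⟩)
      · rw [eq_bot_iff]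
        rintro _ ⟨⟨q, hq, rfl⟩, n, hn, hnq⟩
        rw [Subgroup.mem_bot]
        have h1 : q⁻¹ * n ∈ U := by rw [← hker, map_mul, map_inv, hnq, inv_mul_cancel]
        have hq' : q ∈ Q := hq
        have h2 : n ∈ Q ⊓ N := Subgroup.mem_inf.2 ⟨by simpa using mul_mem hq' (hUQ h1), hn⟩
        rw [hdisj, Subgroup.mem_bot] at h2
        rw [← hnq, h2, map_one]
      · rw [← Subgroup.map_sup, hG, Subgroup.map_top_of_surjective π hsurj]
      · rintro _ ⟨q, hq, rfl⟩
        exact (htc q hq).map π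
      · rw [← Subgroup.map_commutator]
        exact Subgroup.mem_map_of_mem π htQ'
      · intro h
        obtain ⟨k, hk⟩ := Subgroup.mem_zpowers_iff.1 ((hker t).1 h)
        rcases Int.even_or_odd k with ⟨l, rfl⟩ | ⟨l, rfl⟩
        · rw [zpow_add, ← (Commute.refl u).mul_zpow, mul_self_eq_one hu, one_zpow] at hk
          exact ht1 hk.symm
        · rw [zpow_add, zpow_mul, zpow_two, mul_self_eq_one hu, one_zpow, one_mul, zpow_one] at hk
          exact htu hk.symm
      · rintro _ ⟨n, hn, rfl⟩ hnt _ ⟨q, hq, rfl⟩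
        exact (hC n hn (hcommlift n hn t hnt) q hq).map π
    · -- induction in the centraliser of `u`
      set H := Subgroup.centralizer ({u} : Set G) with hH
      have hQH : Q ≤ H := fun q hq => mem_centralizer_singleton.2 (hcQ q hq).eq
      have hlt : Nat.card ↥H ≤ c := by
        have hne : H ≠ ⊤ := fun h => hcent fun x _ =>
          mem_centralizer_singleton.1 (h ▸ Subgroup.mem_top x : x ∈ H)
        have h1 : Nat.card ↥H ≠ Nat.card G := fun h => hne (Subgroup.eq_top_of_card_eq H h)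
        have h2 := Nat.le_of_dvd Nat.card_pos (Subgroup.card_subgroup_dvd_card H)
        omega
      have hih := ih ↥H hlt (N.subgroupOf H) (Q.subgroupOf H)
        (hQ.comap_of_injective H.subtype H.subtype_injective) ?_ ?_ ⟨t, hQH htQ⟩ htQ
        ?_ ?_ ?_ ?_
      · refine step_centralizer hG hQ hQu hu hcQ huQ fun x hx hxu => ?_
        obtain ⟨m, hm, hmQ, hxm⟩ := hih ⟨x, mem_centralizer_singleton.2 hxu.eq⟩ hx
        refine ⟨m, hm, fun q hq => (hmQ ⟨q, hQH hq⟩ hq).map H.subtype, ?_⟩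
        have hle : (oddPart (N.subgroupOf H)).map H.subtype ≤ oddPart (N ⊓ H) := by
          refine le_oddPart ?_ ?_ ?_
          · rintro _ ⟨y, hy, rfl⟩
            exact ⟨(oddPart_le _ hy : y ∈ N.subgroupOf H), y.2⟩
          · rw [Subgroup.card_map_of_injective H.subtype_injective]
            exact odd_card_oddPart _
          · rintro s hs _ ⟨y, hy, rfl⟩
            exact ⟨⟨s, hs.2⟩ * y * ⟨s, hs.2⟩⁻¹,
              Subgroup.Normal.conj_mem inferInstance y hy _, rfl⟩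
        exact hle ⟨_, hxm, rfl⟩
      · rw [eq_bot_iff]
        intro y hy
        have : (y : G) ∈ Q ⊓ N := ⟨hy.1, hy.2⟩
        rw [hdisj, Subgroup.mem_bot] at this
        exact Subtype.ext this
      · rw [eq_top_iff]
        rintro y -
        obtain ⟨q, hq, n, hn, hy⟩ := Subgroup.mem_sup_of_normal_right.1
          (show (y : G) ∈ Q ⊔ N by rw [hG]; exact Subgroup.mem_top _)
        have hnH : n ∈ H := by
          have h1 : q⁻¹ * (y : G) ∈ H := mul_mem (inv_mem (hQH hq)) y.2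
          rwa [← hy, inv_mul_cancel_left] at h1
        have h2 : y = ⟨q, hQH hq⟩ * ⟨n, hnH⟩ := Subtype.ext hy.symm
        rw [h2]
        exact Subgroup.mul_mem_sup hq hn
      · intro q hq
        exact Subtype.ext (htc q hq).eq
      · have h1 : (⁅Q.subgroupOf H, Q.subgroupOf H⁆).map H.subtype = ⁅Q, Q⁆ := by
          rw [Subgroup.map_commutator, Subgroup.map_subgroupOf_eq_of_le hQH]
        rw [← h1] at htQ'
        obtain ⟨y, hy, hyt⟩ := htQ'
        rwa [show (⟨t, hQH htQ⟩ : ↥H) = y from Subtype.ext hyt.symm]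
      · exact fun h => ht1 (congrArg Subtype.val h)
      · intro n hn hnt q hq
        exact Subtype.ext (hC n hn (hnt.map H.subtype) q hq).eq

/-- `[N, Q]` has odd order. -/
theorem odd_card_commutator [Finite G] (N Q : Subgroup G) [N.Normal] (hG : Q ⊔ N = ⊤)
    (hQ : IsPGroup 2 Q) (hdisj : Q ⊓ N = ⊥) (t : G) (ht1 : t ≠ 1)
    (htZ : t ∈ Q ⊓ Subgroup.centralizer (Q : Set G)) (htQ : t ∈ ⁅Q, Q⁆)
    (hC : N ⊓ Subgroup.centralizer (Q : Set G) = N ⊓ Subgroup.centralizer ({t} : Set G)) :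
    Odd (Nat.card ↥⁅N, Q⁆) := by
  have hdec := dec_aux (Nat.card G) G le_rfl N Q hQ hdisj hG t htZ.1
    (fun q hq => htZ.2 q hq) htQ ht1 (fun n hn hnt q hq => by
      have h1 : n ∈ N ⊓ Subgroup.centralizer (Q : Set G) := by
        rw [hC]
        exact ⟨hn, mem_centralizer_singleton.2 hnt.eq⟩
      exact (h1.2 q hq).symm)
  refine (odd_card_oddPart N).of_dvd_nat (Subgroup.card_dvd_of_le ?_)
  refine Subgroup.commutator_le.2 fun n hn q hq => ?_
  obtain ⟨m, hm, hmQ, ho⟩ := hdec n hn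
  rw [commutatorElement_def]
  have h1 : n * q * n⁻¹ * q⁻¹ = (n * m⁻¹) * (q * (n * m⁻¹)⁻¹ * q⁻¹) := by
    calc n * q * n⁻¹ * q⁻¹ = (n * m⁻¹) * (m * q) * n⁻¹ * q⁻¹ := by group
      _ = (n * m⁻¹) * (q * m) * n⁻¹ * q⁻¹ := by rw [(hmQ q hq).eq]
      _ = _ := by group
  rw [h1]
  exact mul_mem ho (Subgroup.Normal.conj_mem inferInstance _ (inv_mem ho) q)

/-- The statement of S2962, given the odd order theorem. -/
theorem isSolvable_and_odd_commutator [Finite G]
    (hFT : ∀ (K : Type u) [Group K] [Finite K], Odd (Nat.card K) → Group.IsSolvable K)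
    (N Q : Subgroup G) [N.Normal] (hG : Q ⊔ N = ⊤)
    (hQ : IsPGroup 2 Q) (hdisj : Q ⊓ N = ⊥) (t : G) (ht1 : t ≠ 1)
    (htZ : t ∈ Q ⊓ Subgroup.centralizer (Q : Set G)) (htQ : t ∈ ⁅Q, Q⁆)
    (hC : N ⊓ Subgroup.centralizer (Q : Set G) = N ⊓ Subgroup.centralizer ({t} : Set G)) :
    Group.IsSolvable ↥⁅N, Q⁆ ∧ Odd (Nat.card ↥⁅N, Q⁆) :=
  have h := odd_card_commutator N Q hG hQ hdisj t ht1 htZ htQ hC
  ⟨hFT ↥⁅N, Q⁆ h, h⟩

end CfsgLib.Balance.TwoAction
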